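import Cfsg.Agent.Class.Four.Defs

set_option autoImplicit false

namespace Cfsg.Agent.Gate

open Cfsg.Geo Cfsg.Lib.Class.Asch Cfsg.Lib.Mit Cfsg.Lib.Four

/-- Hypothesis class: the quasisimple irreducible subgroups of `SL₄`. -/
class Mit4.{u} : Prop where
  out : ∀ {F : Type u} [Field F] [Fintype F] (P : Subgroup (GL (Fin 4) F)),
    QS P → NoSub P → P = specialLinear (Fin 4) F ∨ IsSU P ∨ Outc P

end Cfsg.Agent.Gate
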