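import Cfsg.Agent.KF.FixRed

set_option autoImplicit false

namespace Cfsg.Lib.NSF

open Subgroup Cfsg.Lib.KF

/-- Facts on the fixed points `J` of a coprime automorphism `x` of prime order of a known simple
group `K`. -/
structure FB {K : Type*} [Group K] (x : MulAut K) : Prop where
  sol : Group.IsSolvable (Fx x) → ∀ N : Subgroup K, N ≤ Fx x → Fx x ≤ normalizer (N : Set K) →
    N ≠ ⊥ → Fx x ⊓ centralizer (N : Set K) ≤ N
  nsol : ¬ Group.IsSolvable (Fx x) → ∃ T : Subgroup K, T ≤ Fx x ∧ Fx x ≤ normalizer (T : Set K) ∧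
    IsSimpleGroup T ∧ Fx x ⊓ centralizer (T : Set K) = ⊥
  syl : ∃ p : ℕ, p.Prime ∧ ∃ U : Sylow p K, (∀ u ∈ (U : Subgroup K), x u ∈ (U : Subgroup K)) ∧
    (∀ U' : Sylow p K, (∀ u ∈ (U' : Subgroup K), x u ∈ (U' : Subgroup K)) →
      (U : Subgroup K) ⊓ Fx x ≤ U' → U' = U) ∧
    ((U : Subgroup K) ⊓ centralizer ((U : Subgroup K) : Set K)) ⊔ Fx x = ⊤

end Cfsg.Lib.NSF

namespace Cfsg.Agent.Gate

/-- Hypothesis class: the facts `FB` hold for the coprime automorphisms of prime order of the known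
simple groups. -/
class KFB.{v} : Prop where
  out : ∀ (K : Type v) [Group K] [Finite K] [IsSimpleGroup K], ¬ IsMulCommutative K →
    Cfsg.IsKnownSimple' K → ∀ r : ℕ, r.Prime → ¬ r ∣ Nat.card K →
      ∀ x : MulAut K, orderOf x = r → Cfsg.Lib.NSF.FB x

end Cfsg.Agent.Gate
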